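import Cfsg.Agent.Lib.GW.PGLTwoCent
import Cfsg.Agent.Lib.Jordan.AlmostCyclic.Defs

/-!
# The local data of a simple group with semidihedral Sylow `2`-subgroups and cyclic odd Sylow subgroups

The involution `z` is central in a Sylow `2`-subgroup `S = ⟨x, t⟩`, `y₀ = x ^ (2 ^ (k + 1))` has order
`4`, `C = C(z)`, `N = O(C)` and `f` is the action of `C` on `PSL₂(p)`.
-/

set_option autoImplicit false

namespace CfsgLib.Jordan.SD

open CfsgLib.ReflectionsSpinor.PSL CfsgLib.GW.PGLTwo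

universe u

/-- Everything the two case analyses need to know about `G`. -/
structure Core (G : Type u) [Group G] where
  p : ℕ
  [hp : Fact p.Prime]
  hp2 : p ≠ 2
  /- the semidihedral Sylow subgroup -/
  k : ℕ
  S : Sylow 2 G
  x : G
  z : G
  t : G
  y₀ : G
  x_mem : x ∈ (S : Subgroup G)
  t_mem : t ∈ (S : Subgroup G)
  orderOf_x : orderOf x = 2 ^ (k + 3)
  card_S : Nat.card (S : Subgroup G) = 2 ^ (k + 4)
  t_conj_x : t * x * t = x ^ (2 ^ (k + 2) - 1)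
  S_cases : ∀ g ∈ (S : Subgroup G), g ∈ Subgroup.zpowers x ∨ g * t ∈ Subgroup.zpowers x
  S_involution : ∀ a ∈ (S : Subgroup G), a * a = 1 → a ∉ Subgroup.zpowers x →
    ∃ s ∈ Subgroup.zpowers x, s * t * s⁻¹ = a
  z_eq : z = x ^ 2 ^ (k + 2)
  y₀_eq : y₀ = x ^ 2 ^ (k + 1)
  z_sq : z * z = 1
  z_ne : z ≠ 1
  t_sq : t * t = 1
  t_ne : t ≠ 1
  t_ne_z : t ≠ z
  tz_comm : t * z = z * t
  t_not_mem_x : t ∉ Subgroup.zpowers x
  y₀_sq : y₀ * y₀ = z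
  y₀_conj_t : y₀ * t * y₀⁻¹ = z * t
  one_class : ∀ a : G, a * a = 1 → a ≠ 1 → IsConj z a
  /- the core of the centraliser -/
  N : Subgroup G
  N_le : N ≤ Subgroup.centralizer {z}
  N_norm : Subgroup.centralizer {z} ≤ Subgroup.normalizer (N : Set G)
  N_odd : Odd (Nat.card N)
  N_cyclic : IsCyclic N
  t_inv_N : ∀ a ∈ N, t * a * t = a⁻¹
  y₀_comm_N : ∀ a ∈ N, y₀ * a = a * y₀
  N_cent : ∀ a ∈ N, a ≠ 1 → Subgroup.centralizer {a} ≤ Subgroup.centralizer {z}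
  /- the action on `PSL₂(p)` -/
  f : Subgroup.centralizer ({z} : Set G) →*
    MulAut (Matrix.ProjectiveSpecialLinearGroup (Fin 2) (ZMod p))
  f_range : f.range = (toAutHom (n := 2) (F := ZMod p)).range
  f_ker : ∀ g : Subgroup.centralizer ({z} : Set G), f g = 1 ↔ (g : G) ∈ N ∨ (g : G) * z ∈ N
  f_y₀ : ∀ h : y₀ ∈ Subgroup.centralizer ({z} : Set G), f ⟨y₀, h⟩ ∈ innG (ZMod p)
  f_t : ∀ h : t ∈ Subgroup.centralizer ({z} : Set G), f ⟨t, h⟩ ∉ innG (ZMod p)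
  /- the numbers -/
  m : ℕ
  n : ℕ
  four_dvd_m : 4 ∣ m
  mn_cases : (m = p + 1 ∧ n + 1 = p) ∨ (n = p + 1 ∧ m + 1 = p)
  card_C : Nat.card (Subgroup.centralizer ({z} : Set G)) = 2 * Nat.card N * (p * (p ^ 2 - 1))
  card_Cy : Nat.card (Subgroup.centralizer ({y₀} : Set G)) = 2 * m * Nat.card N
  card_Cfy : ∀ h : y₀ ∈ Subgroup.centralizer ({z} : Set G),
    Nat.card (f.range ⊓ Subgroup.centralizer {f ⟨y₀, h⟩} : Subgroup _) = 2 * m
  card_Cft : ∀ h : t ∈ Subgroup.centralizer ({z} : Set G),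
    Nat.card (f.range ⊓ Subgroup.centralizer {f ⟨t, h⟩} : Subgroup _) = 2 * n
  /- the four-group `V = ⟨z, t⟩` -/
  T₀ : Subgroup G
  T₀_odd : Odd (Nat.card T₀)
  T₀_cyclic : IsCyclic T₀
  T₀_le : T₀ ≤ Subgroup.centralizer {z, t}
  card_T₀ : 2 * Nat.card T₀ = n
  card_CV : Nat.card (Subgroup.centralizer ({z, t} : Set G)) = 2 * n
  y₀_inv_T₀ : ∀ a ∈ T₀, y₀ * a * y₀⁻¹ = a⁻¹
  T₀_comm_N : ∀ a ∈ T₀, ∀ b ∈ N, a * b = b * a
  σ : G
  σ_z : σ * z * σ⁻¹ = t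
  σ_t : σ * t * σ⁻¹ = z * t
  σ_T₀ : ∀ a ∈ T₀, σ * a = a * σ

attribute [instance] Core.hp

end CfsgLib.Jordan.SD
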