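import Mathlib.GroupTheory.Perm.Sign
import Mathlib.Data.ZMod.Basic
import Mathlib.Data.Fin.VecNotation
import Mathlib.GroupTheory.SpecificGroups.Alternating

/-!
# Facts about the symmetric group of degree four used in the case `p = 3`

The permutations of four points act on the three partitions into pairs; on even permutations this
gives the character onto the group of order three.
-/

set_option autoImplicit false

namespace CfsgLib.Jordan.SD.PermFour

open Equiv

/-- The index of the partition into pairs having `{a, b}` as a block. -/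
def pairIdx : Fin 4 → Fin 4 → ZMod 3 :=
  ![![0, 0, 1, 2], ![0, 0, 2, 1], ![1, 2, 0, 0], ![2, 1, 0, 0]]

/-- The image of the partition `{0, 1}, {2, 3}`. -/
def rot (σ : Perm (Fin 4)) : ZMod 3 := pairIdx (σ 0) (σ 1)

theorem rot_mul : ∀ σ τ : Perm (Fin 4), Perm.sign σ = 1 → rot (σ * τ) = rot σ + rot τ := by
  decide +kernel

theorem rot_conj : ∀ τ σ : Perm (Fin 4), Perm.sign τ = -1 → Perm.sign σ = 1 → τ * τ = 1 →
    rot (τ * σ * τ) = -rot σ := by
  decide +kernel

theorem rot_eq_zero : ∀ σ : Perm (Fin 4), Perm.sign σ = 1 → (rot σ = 0 ↔ σ * σ = 1) := by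
  decide +kernel

theorem cube_of_rot : ∀ σ : Perm (Fin 4), Perm.sign σ = 1 → rot σ ≠ 0 → σ ^ 3 = 1 := by
  decide +kernel

theorem exists_rot : ∃ σ : Perm (Fin 4), Perm.sign σ = 1 ∧ rot σ ≠ 0 := by
  decide +kernel

theorem sign_of_four : ∀ σ : Perm (Fin 4), σ ^ 4 = 1 → σ * σ ≠ 1 → Perm.sign σ = -1 := by
  decide +kernel

theorem sign_of_card : ∀ σ : Perm (Fin 4), σ * σ = 1 →
    (Finset.univ.filter fun τ : Perm (Fin 4) => τ * σ = σ * τ).card = 4 → Perm.sign σ = -1 := by
  decide +kernel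

theorem cube_of_comm : ∀ σ ρ : Perm (Fin 4), ρ ^ 3 = 1 → ρ ≠ 1 → σ * ρ = ρ * σ → σ ^ 3 = 1 := by
  decide +kernel

theorem sq_of_inv : ∀ σ ρ : Perm (Fin 4), Perm.sign σ = -1 → ρ ^ 3 = 1 → ρ ≠ 1 →
    σ * ρ * σ⁻¹ = ρ⁻¹ → σ * σ = 1 := by
  decide +kernel

end CfsgLib.Jordan.SD.PermFour
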